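import Cfsg.Agent.AltExc.ThreeG2
import Cfsg.Agent.G2Oct.Bridge

/-!
Alternating sections of `G₂`.
-/

set_option autoImplicit false

namespace CfsgLib.AltExc

open Cfsg.Lie CfsgLib.G2Oct CfsgLib.AltLinear

variable {F : Type*} [Field F] [Fintype F]

/-- No alternating section of degree seven outside characteristic five. -/
theorem no_alt7 (h5 : (5 : F) ≠ 0) (H : Subgroup ↥(G2 F)) (φ : H →* Alt 7) (hφ : Function.Surjective φ) : False := by
  haveI : Finite ↥(G2 F) := Finite.of_injective _ (gm_injective (RingHom.id F))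
  haveI : Fact (Nat.Prime 5) := ⟨by norm_num⟩
  let ι := algebraMap F (AlgebraicClosure F)
  obtain ⟨z, y, hz, h⟩ := exists_conj_sq φ hφ fun P hP a ha b hb => by
    have := abelian_of_five_le ι (l := 5) le_rfl (by exact_mod_cast h5) (P.map H.subtype) (hP.map _)
      a ⟨a, ha, rfl⟩ b ⟨b, hb, rfl⟩
    exact Subtype.ext this
  exact not_conj_sq ι h5 (z : ↥(G2 F)) (y : ↥(G2 F)) (by rw [Subgroup.orderOf_coe, hz])
    (by rw [← Subgroup.coe_pow, ← h]; rfl)

/-- No alternating section of degree eight outside characteristic three. -/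
theorem no_alt8 (h3 : (3 : F) ≠ 0) (H : Subgroup ↥(G2 F)) (φ : H →* Alt 8) (hφ : Function.Surjective φ) : False := by
  haveI : Finite ↥(G2 F) := Finite.of_injective _ (gm_injective (RingHom.id F))
  let ι := algebraMap F (AlgebraicClosure F)
  obtain ⟨H', φ', hφ', hmin⟩ := exists_min H φ hφ
  obtain ⟨a, b, s, v, haφ, hbφ, ha3, hb3, hab, hsa, hva, hvb⟩ :=
    exists_three_config φ' hφ' (three_central ι h3 H' φ' hφ' hmin)
  have hne : ∀ (x : H') (y : Alt 8), φ' x = y → y ≠ 1 → (x : ↥(G2 F)) ≠ 1 := fun x y hx hy e =>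
    hy (by rw [← hx, show x = 1 from Subtype.ext e, map_one])
  exact no_three_config ι h3 (a : ↥(G2 F)) (b : ↥(G2 F)) (s : ↥(G2 F)) (v : ↥(G2 F))
    (congrArg Subtype.val ha3) (congrArg Subtype.val hb3) (congrArg Subtype.val hab)
    (hne a _ haφ (by decide)) (hne b _ hbφ (by decide))
    (hne (a * b) _ (by rw [map_mul, haφ, hbφ]) (by decide))
    (congrArg Subtype.val hsa) (congrArg Subtype.val hva) (congrArg Subtype.val hvb)

end CfsgLib.AltExc
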