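import Cfsg.Agent.AltExc.Setup

/-!
Lifting the normalizer of an elementary abelian subgroup of order nine of the alternating group of degree eight.
-/

set_option autoImplicit false

namespace CfsgLib.AltExc

open CfsgLib.AltLinear

/-- First three-cycle. -/
def a8 : Alt 8 := ⟨Equiv.swap 0 1 * Equiv.swap 1 2, Equiv.Perm.mem_alternatingGroup.2 (by decide)⟩
/-- Second three-cycle. -/
def b8 : Alt 8 := ⟨Equiv.swap 3 4 * Equiv.swap 4 5, Equiv.Perm.mem_alternatingGroup.2 (by decide)⟩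
/-- An involution inverting the first three-cycle only. -/
def u8 : Alt 8 := ⟨Equiv.swap 0 2 * Equiv.swap 6 7, Equiv.Perm.mem_alternatingGroup.2 (by decide)⟩
/-- An involution inverting the second three-cycle only. -/
def v8 : Alt 8 := ⟨Equiv.swap 3 5 * Equiv.swap 6 7, Equiv.Perm.mem_alternatingGroup.2 (by decide)⟩
/-- An involution exchanging the three-cycles. -/
def s8 : Alt 8 := ⟨Equiv.swap 0 3 * Equiv.swap 1 4 * Equiv.swap 2 5 * Equiv.swap 6 7,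
  Equiv.Perm.mem_alternatingGroup.2 (by decide)⟩

theorem rel8 : a8 ^ 3 = 1 ∧ b8 ^ 3 = 1 ∧ a8 * b8 = b8 * a8 ∧ u8 * a8 * u8⁻¹ = a8⁻¹ ∧
    v8 * b8 * v8⁻¹ = b8⁻¹ ∧ u8 * b8 * u8⁻¹ = b8 ∧ v8 * a8 * v8⁻¹ = a8 ∧ s8 * a8 * s8⁻¹ = b8 ∧
    s8 * b8 * s8⁻¹ = a8 ∧ u8 * u8 = 1 ∧ v8 * v8 = 1 ∧ u8 * v8 = v8 * u8 ∧ v8 * s8 = s8 * u8 := by
  decide +kernel

/-- The subgroup generated by the two three-cycles. -/
def E8 : Subgroup (Alt 8) where
  carrier := {g | ∃ i j : ℕ, g = a8 ^ i * b8 ^ j}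
  mul_mem' := by
    rintro _ _ ⟨i, j, rfl⟩ ⟨i', j', rfl⟩
    refine ⟨i + i', j + j', ?_⟩
    have h : b8 ^ j * a8 ^ i' = a8 ^ i' * b8 ^ j :=
      ((Commute.pow_pow (show Commute a8 b8 from rel8.2.2.1) i' j).symm).eq
    rw [mul_assoc, ← mul_assoc (b8 ^ j), h, pow_add, pow_add]
    simp only [mul_assoc]
  one_mem' := ⟨0, 0, by simp⟩
  inv_mem' := by
    rintro _ ⟨i, j, rfl⟩
    refine ⟨2 * i, 2 * j, ?_⟩
    have hc := (Commute.pow_pow (show Commute a8 b8 from rel8.2.2.1) (2 * i) (2 * j))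
    refine inv_eq_of_mul_eq_one_left ?_
    calc a8 ^ (2 * i) * b8 ^ (2 * j) * (a8 ^ i * b8 ^ j)
        = a8 ^ (2 * i) * (b8 ^ (2 * j) * a8 ^ i) * b8 ^ j := by simp only [mul_assoc]
      _ = a8 ^ (2 * i) * (a8 ^ i * b8 ^ (2 * j)) * b8 ^ j := by
          rw [((Commute.pow_pow (show Commute a8 b8 from rel8.2.2.1) i (2 * j)).symm).eq]
      _ = a8 ^ (3 * i) * b8 ^ (3 * j) := by
          rw [← mul_assoc, ← pow_add, mul_assoc, ← pow_add]; congr 2 <;> ring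
      _ = 1 := by rw [pow_mul, pow_mul, rel8.1, rel8.2.1, one_pow, one_pow, one_mul]

theorem a8_mem : a8 ∈ E8 := ⟨1, 0, by simp⟩

theorem b8_mem : b8 ∈ E8 := ⟨0, 1, by simp⟩

theorem E8_isPGroup : IsPGroup 3 E8 := by
  rintro ⟨_, i, j, rfl⟩
  refine ⟨1, Subtype.ext ?_⟩
  show (a8 ^ i * b8 ^ j) ^ 3 ^ 1 = 1
  rw [pow_one, (Commute.pow_pow (show Commute a8 b8 from rel8.2.2.1) i j).mul_pow, ← pow_mul, ← pow_mul,
    mul_comm i, mul_comm j, pow_mul, pow_mul, rel8.1, rel8.2.1, one_pow, one_pow, one_mul]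

theorem mem_normalizer_E8 {g : Alt 8} (ha : g * a8 * g⁻¹ ∈ E8) (hb : g * b8 * g⁻¹ ∈ E8) :
    g ∈ Subgroup.normalizer (E8 : Set (Alt 8)) := by
  rw [Subgroup.mem_normalizer_iff_map_conj_eq]
  refine Subgroup.eq_of_le_of_card_ge ?_ ?_
  · rintro _ ⟨_, ⟨i, j, rfl⟩, rfl⟩
    show MulAut.conj g (a8 ^ i * b8 ^ j) ∈ E8
    rw [map_mul, map_pow, map_pow]
    exact mul_mem (pow_mem ha i) (pow_mem hb j)
  · rw [Subgroup.card_map_of_injective (MulEquiv.injective _)]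

theorem normalizer_E8 : u8 ∈ Subgroup.normalizer (E8 : Set (Alt 8)) ∧
    v8 ∈ Subgroup.normalizer (E8 : Set (Alt 8)) ∧ s8 ∈ Subgroup.normalizer (E8 : Set (Alt 8)) := by
  obtain ⟨-, -, -, hua, hvb, hub, hva, hsa, hsb, -⟩ := rel8
  refine ⟨mem_normalizer_E8 ?_ ?_, mem_normalizer_E8 ?_ ?_, mem_normalizer_E8 ?_ ?_⟩
  · rw [hua]; exact inv_mem a8_mem
  · rw [hub]; exact b8_mem
  · rw [hva]; exact a8_mem
  · rw [hvb]; exact inv_mem b8_mem
  · rw [hsa]; exact b8_mem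
  · rw [hsb]; exact a8_mem

/-- If the three-elements of the kernel are central, the normalizer configuration lifts. -/
theorem exists_three_config {H : Type*} [Group H] [Finite H] (φ : H →* Alt 8) (hφ : Function.Surjective φ)
    (hQ : ∀ x : H, φ x = 1 → (∃ k : ℕ, x ^ 3 ^ k = 1) → x ∈ Subgroup.center H) :
    ∃ a b s v : H, φ a = a8 ∧ φ b = b8 ∧ a ^ 3 = 1 ∧ b ^ 3 = 1 ∧ a * b = b * a ∧
      s * a * s⁻¹ = b ∧ v * a * v⁻¹ = a ∧ v * b * v⁻¹ = b⁻¹ := by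
  haveI : Fact (Nat.Prime 3) := ⟨by norm_num⟩
  obtain ⟨P₀⟩ : Nonempty (Sylow 3 ↥(E8.comap φ)) := Sylow.nonempty
  let P := (P₀ : Subgroup ↥(E8.comap φ)).map (E8.comap φ).subtype
  have hP : IsPGroup 3 P := P₀.2.map _
  have hsm := sylow_map_eq φ hφ E8 E8_isPGroup P₀
  obtain ⟨u, hu, huφ⟩ := exists_lift_normalizer φ hφ E8 E8_isPGroup P₀ normalizer_E8.1
  obtain ⟨v, hv, hvφ⟩ := exists_lift_normalizer φ hφ E8 E8_isPGroup P₀ normalizer_E8.2.1
  obtain ⟨s, hs, hsφ⟩ := exists_lift_normalizer φ hφ E8 E8_isPGroup P₀ normalizer_E8.2.2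
  obtain ⟨r1, r2, r3, r4, r5, r6, r7, r8, r9, r10, r11, r12, r13⟩ := rel8
  have hcen : ∀ x ∈ P, φ x = 1 → x ∈ Subgroup.center H := fun x hx h1 => hQ x h1 (by
    obtain ⟨k, hk⟩ := hP ⟨x, hx⟩
    exact ⟨k, by simpa using congrArg Subtype.val hk⟩)
  have hconj : ∀ g ∈ Subgroup.normalizer (P : Set H), ∀ x ∈ P, g * x * g⁻¹ ∈ P := fun g hg x hx =>
    (Subgroup.mem_normalizer_iff.1 hg x).1 hx
  -- only the image matters
  have hker : ∀ k ∈ Subgroup.normalizer (P : Set H), φ k = 1 → ∀ x ∈ P, k * x * k⁻¹ = x := by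
    intro k hk hk1 x hx
    set z := k * x * k⁻¹ * x⁻¹ with hz
    have hzP : z ∈ P := mul_mem (hconj k hk x hx) (inv_mem hx)
    have hzc : z ∈ Subgroup.center H := hcen z hzP (by simp [hz, hk1])
    have hit : ∀ i : ℕ, k ^ i * x * (k ^ i)⁻¹ = z ^ i * x := fun i => by
      induction i with
      | zero => simp
      | succ i ih =>
        rw [pow_succ', _root_.mul_inv_rev, show k * k ^ i * x * ((k ^ i)⁻¹ * k⁻¹) =
          k * (k ^ i * x * (k ^ i)⁻¹) * k⁻¹ by group, ih,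
          show k * (z ^ i * x) * k⁻¹ = k * z ^ i * k⁻¹ * (k * x * k⁻¹) by group,
          Subgroup.mem_center_iff.1 (pow_mem hzc i) k, mul_inv_cancel_right,
          show k * x * k⁻¹ = z * x by rw [hz]; group, ← mul_assoc, ← pow_succ]
    obtain ⟨j, m, hm3, hord⟩ := Nat.exists_eq_pow_mul_and_not_dvd (orderOf_pos k).ne' 3 (by norm_num)
    have hkm : k ^ m ∈ Subgroup.center H := hQ _ (by rw [map_pow, hk1, one_pow]) ⟨j, by
      rw [← pow_mul, mul_comm, ← hord, pow_orderOf_eq_one]⟩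
    have hzm : z ^ m = 1 := by
      have h := hit m
      rw [← Subgroup.mem_center_iff.1 hkm x, mul_inv_cancel_right] at h
      exact (mul_eq_right.1 h.symm)
    obtain ⟨e, he⟩ := hP ⟨z, hzP⟩
    have he' : z ^ 3 ^ e = 1 := by simpa using congrArg Subtype.val he
    have hz1 : z = 1 := by
      have := Nat.dvd_gcd (orderOf_dvd_of_pow_eq_one hzm) (orderOf_dvd_of_pow_eq_one he')
      rw [((Nat.prime_three.coprime_iff_not_dvd.2 hm3).pow_left e).symm, Nat.dvd_one] at this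
      exact orderOf_eq_one_iff.1 this
    rw [hz, mul_inv_eq_one] at hz1
    exact hz1
  have hsame : ∀ g ∈ Subgroup.normalizer (P : Set H), ∀ g' ∈ Subgroup.normalizer (P : Set H), φ g = φ g' →
      ∀ x ∈ P, g * x * g⁻¹ = g' * x * g'⁻¹ := by
    intro g hg g' hg' he x hx
    have h := hker (g'⁻¹ * g) (mul_mem (inv_mem hg') hg) (by rw [map_mul, map_inv, he, inv_mul_cancel]) x hx
    calc g * x * g⁻¹ = g' * (g'⁻¹ * g * x * (g'⁻¹ * g)⁻¹) * g'⁻¹ := by group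
      _ = g' * x * g'⁻¹ := by rw [h]
  have huniq : ∀ g : H, ∀ x ∈ P, ∀ y ∈ P, φ x = φ y → g * x * g⁻¹ = x⁻¹ → g * y * g⁻¹ = y⁻¹ → x = y := by
    intro g x hx y hy he hgx hgy
    set z := y⁻¹ * x with hz
    have hzP : z ∈ P := mul_mem (inv_mem hy) hx
    have hzc : z ∈ Subgroup.center H := hcen z hzP (by simp [hz, he])
    have h1 : x⁻¹ = y⁻¹ * z := by
      rw [← hgx, show x = y * z by rw [hz, mul_inv_cancel_left], show g * (y * z) * g⁻¹ = (g * y * g⁻¹) * (g * z * g⁻¹) by group,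
        hgy, Subgroup.mem_center_iff.1 hzc g, mul_inv_cancel_right]
    have h2 : z ^ 2 = 1 := by
      have h3 : x⁻¹ = z⁻¹ * y⁻¹ := by rw [hz]; group
      rw [h3, Subgroup.mem_center_iff.1 hzc y⁻¹] at h1
      rw [sq]
      calc z * z = z * (z⁻¹)⁻¹ := by rw [inv_inv]
        _ = 1 := by rw [mul_right_cancel h1]; group
    obtain ⟨e, he'⟩ := hP ⟨z, hzP⟩
    have he2 : z ^ 3 ^ e = 1 := by simpa using congrArg Subtype.val he'
    have h4 := Nat.dvd_gcd (orderOf_dvd_of_pow_eq_one h2) (orderOf_dvd_of_pow_eq_one he2)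
    rw [(Nat.Coprime.pow_right e (show Nat.Coprime 2 3 by norm_num)), Nat.dvd_one] at h4
    exact (inv_mul_eq_one.1 (orderOf_eq_one_iff.1 h4)).symm
  have hlift : ∀ (α β : Alt 8) (g : H), α ∈ E8 → g ∈ Subgroup.normalizer (P : Set H) → φ g = β →
      β * β = 1 → β * α * β⁻¹ = α⁻¹ → α ^ 3 = 1 → ∃ x ∈ P, φ x = α ∧ g * x * g⁻¹ = x⁻¹ ∧ x ^ 3 = 1 := by
    intro α β g hα hg hgφ hββ hαβ hα3
    obtain ⟨a, haP, ha⟩ := (hsm.symm ▸ inv_mem hα : α⁻¹ ∈ P.map φ)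
    set a' := g * a * g⁻¹ with ha'
    have h2 : g * a' * g⁻¹ = a := by
      rw [ha', show g * (g * a * g⁻¹) * g⁻¹ = (g * g) * a * (g * g)⁻¹ by group]
      exact hker _ (mul_mem hg hg) (by rw [map_mul, hgφ, hββ]) a haP
    have hinv : g * (a * a'⁻¹) * g⁻¹ = (a * a'⁻¹)⁻¹ := by
      rw [show g * (a * a'⁻¹) * g⁻¹ = (g * a * g⁻¹) * (g * a' * g⁻¹)⁻¹ by group, h2, ← ha']
      group
    have hxP : a * a'⁻¹ ∈ P := mul_mem haP (inv_mem (hconj g hg a haP))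
    have hxφ : φ (a * a'⁻¹) = α := by
      rw [map_mul, map_inv, ha', map_mul, map_mul, map_inv, ha, hgφ]
      have h5 : β * α⁻¹ * β⁻¹ = α := by
        rw [← inv_inv (β * α⁻¹ * β⁻¹), show (β * α⁻¹ * β⁻¹)⁻¹ = β * α * β⁻¹ by group, hαβ, inv_inv]
      rw [h5, ← _root_.mul_inv_rev]
      exact inv_eq_of_mul_eq_one_left (by rw [← hα3, pow_three])
    refine ⟨_, hxP, hxφ, hinv, huniq g _ (pow_mem hxP 3) 1 (one_mem P) ?_ ?_ ?_⟩
    · rw [map_pow, hxφ, hα3, map_one]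
    · rw [← conj_pow, hinv, inv_pow]
    · simp
  obtain ⟨a, haP, haφ, hua, ha3⟩ := hlift a8 u8 u a8_mem hu huφ r10 r4 r1
  obtain ⟨b, hbP, hbφ, hvb, hb3⟩ := hlift b8 v8 v b8_mem hv hvφ r11 r5 r2
  have hva : v * a * v⁻¹ = a := by
    refine huniq u _ (hconj v hv a haP) a haP (by rw [map_mul, map_mul, map_inv, hvφ, haφ, r7]) ?_ hua
    rw [show u * (v * a * v⁻¹) * u⁻¹ = (u * v) * a * (u * v)⁻¹ by group,
      hsame _ (mul_mem hu hv) _ (mul_mem hv hu) (by rw [map_mul, map_mul, huφ, hvφ, r12]) a haP,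
      show v * u * a * (v * u)⁻¹ = v * (u * a * u⁻¹) * v⁻¹ by group, hua]
    group
  have hab : a * b = b * a := by
    have h : a * b * a⁻¹ = b := by
      refine huniq v _ (mul_mem (mul_mem haP hbP) (inv_mem haP)) b hbP ?_ ?_ hvb
      · rw [map_mul, map_mul, map_inv, haφ, hbφ, r3, mul_inv_cancel_right]
      · rw [show v * (a * b * a⁻¹) * v⁻¹ = (v * a * v⁻¹) * (v * b * v⁻¹) * (v * a * v⁻¹)⁻¹ by group, hva, hvb]
        group
    exact mul_inv_eq_iff_eq_mul.1 h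
  refine ⟨a, b, s, v, haφ, hbφ, ha3, hb3, hab, ?_, hva, hvb⟩
  refine huniq v _ (hconj s hs a haP) b hbP (by rw [map_mul, map_mul, map_inv, hsφ, haφ, r8, hbφ]) ?_ hvb
  rw [show v * (s * a * s⁻¹) * v⁻¹ = (v * s) * a * (v * s)⁻¹ by group,
    hsame _ (mul_mem hv hs) _ (mul_mem hs hu) (by rw [map_mul, map_mul, huφ, hvφ, hsφ, r13]) a haP,
    show s * u * a * (s * u)⁻¹ = s * (u * a * u⁻¹) * s⁻¹ by group, hua]
  group

end CfsgLib.AltExc
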