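import Cfsg.Agent.AltExc.G2Eigen
import Cfsg.Agent.AltExc.ThreeLift

/-!
Three-elements in the kernel of an alternating image of degree eight inside `G₂` are central.
-/

set_option autoImplicit false

namespace CfsgLib.AltExc

open Matrix Cfsg.Lie CfsgLib.G2Oct CfsgLib.AltLinear
open scoped commutatorElement

theorem card_alt8 : Nat.card (Alt 8) = 20160 := by
  have h := card_alt (r := 8) (by norm_num)
  rw [show Nat.factorial 8 = 40320 by rfl] at h
  omega

section Abstract

variable {H : Type*} [Group H] [Finite H] {φ : H →* Alt 8}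

/-- Homomorphisms to groups smaller than the alternating group are trivial. -/
theorem eq_one_of_small (hφ : Function.Surjective φ) (hmin : ∀ M : Subgroup H, M ≠ ⊤ → M.map φ ≠ ⊤)
    {A : Type*} [Group A] [Finite A] (hA : Nat.card A < 20160) (ψ : H →* A) (g : H) : ψ g = 1 := by
  rcases normal_eq_top_or_le (by norm_num) hφ hmin ψ.ker with h | h
  · exact (h ▸ Subgroup.mem_top g : g ∈ ψ.ker)
  · exfalso
    choose sec hsec using hφ
    have hinj : Function.Injective fun x => ψ (sec x) := fun x y e => by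
      have h1 := h (show sec x * (sec y)⁻¹ ∈ ψ.ker by
        rw [MonoidHom.mem_ker, map_mul, map_inv]; exact mul_inv_eq_one.2 e)
      rwa [MonoidHom.mem_ker, map_mul, map_inv, mul_inv_eq_one, hsec, hsec] at h1
    have := Nat.card_le_card_of_injective _ hinj
    rw [card_alt8] at this
    omega

theorem mem_center_of_commutator_mem (hperf : commutator H = ⊤) {x : H}
    (hx : ∀ g : H, ⁅g, x⁆ ∈ Subgroup.center H) : x ∈ Subgroup.center H := by
  refine Subgroup.mem_center_iff.2 fun g => ?_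
  let f : H →* Subgroup.center H :=
    { toFun := fun g => ⟨⁅g, x⁆, hx g⟩
      map_one' := Subtype.ext (commutatorElement_one_left x)
      map_mul' := fun g g' => Subtype.ext (by
        show ⁅g * g', x⁆ = ⁅g, x⁆ * ⁅g', x⁆
        rw [show ⁅g * g', x⁆ = g * ⁅g', x⁆ * g⁻¹ * ⁅g, x⁆ by simp only [commutatorElement_def]; group,
          Subgroup.mem_center_iff.1 (hx g') g, mul_inv_cancel_right,
          Subgroup.mem_center_iff.1 (hx g) ⁅g', x⁆]) }
  have := congrArg Subtype.val (hom_comm_eq_one hperf (fun a b => Subtype.ext (Subgroup.mem_center_iff.1 b.2 a.1)) f g)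
  exact commutatorElement_eq_one_iff_mul_comm.1 this

end Abstract

/-- A three-group of order at most nine is generated by two elements. -/
theorem exists_two_generators {Q : Type*} [Group Q] [Finite Q] (hQ : IsPGroup 3 Q) (h9 : Nat.card Q ≤ 9) :
    ∃ a b : Q, Subgroup.closure ({a, b} : Set Q) = ⊤ := by
  haveI : Fact (Nat.Prime 3) := ⟨by norm_num⟩
  by_cases h1 : ∀ a : Q, a = 1
  · exact ⟨1, 1, eq_top_iff.2 fun x _ => by rw [h1 x]; exact one_mem _⟩
  push Not at h1
  obtain ⟨a, ha⟩ := h1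
  by_cases h2 : Subgroup.zpowers a = ⊤
  · exact ⟨a, a, eq_top_iff.2 (h2 ▸ Subgroup.zpowers_le.2 (Subgroup.subset_closure (by simp)))⟩
  obtain ⟨b, -, hb⟩ := SetLike.exists_of_lt (lt_top_iff_ne_top.2 h2)
  refine ⟨a, b, Subgroup.eq_top_of_card_eq _ ?_⟩
  set C := Subgroup.closure ({a, b} : Set Q)
  have hlt : Subgroup.zpowers a < C := lt_of_le_of_ne (Subgroup.zpowers_le.2 (Subgroup.subset_closure (by simp)))
    fun e => hb (e ▸ Subgroup.subset_closure (by simp))
  have hd1 := Subgroup.card_dvd_of_le hlt.le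
  have hd2 := C.card_subgroup_dvd_card
  have hne : Nat.card (Subgroup.zpowers a) ≠ Nat.card C := fun e =>
    hlt.ne (Subgroup.eq_of_le_of_card_ge hlt.le e.ge)
  obtain ⟨n, hn⟩ := IsPGroup.iff_card.1 hQ
  obtain ⟨m, hm⟩ := IsPGroup.iff_card.1 (hQ.to_subgroup C)
  obtain ⟨l, hl⟩ := IsPGroup.iff_card.1 (hQ.to_subgroup (Subgroup.zpowers a))
  rw [hn] at h9 hd2 ⊢
  rw [hm] at hd1 hd2 hne ⊢
  rw [hl] at hd1 hne
  have hl1 : l ≠ 0 := fun e => by
    rw [e, pow_zero, Nat.card_zpowers, orderOf_eq_one_iff] at hl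
    exact ha hl
  have hlm : l ≤ m := (Nat.pow_dvd_pow_iff_le_right (by norm_num)).1 hd1
  have hlm' : l ≠ m := fun e => hne (by rw [e])
  have hmn : m ≤ n := (Nat.pow_dvd_pow_iff_le_right (by norm_num)).1 hd2
  have hn2 : n ≤ 2 := by
    by_contra hc
    have := Nat.pow_le_pow_right (show 0 < 3 by norm_num) (show 3 ≤ n by omega)
    omega
  rw [show m = n by omega]

theorem three_pow_mul_self_ne_one {K : Type*} [Field K] {μ : K} {k : ℕ} (h : μ ^ 3 ^ k = 1) (hμ : μ ≠ 1) :
    μ * μ ≠ 1 := fun e => hμ (by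
  obtain ⟨j, hj⟩ : Odd (3 ^ k) := Odd.pow (by decide)
  rwa [hj, pow_succ, pow_mul, sq, e, one_pow, one_mul] at h)

variable {F : Type*} [Field F] [Fintype F] {K : Type*} [Field K] [IsAlgClosed K] (ι : F →+* K)

/-- A joint eigenbasis for an abelian subgroup of a subgroup. -/
theorem exists_joint_basis_sub (H : Subgroup ↥(G2 F)) (A : Subgroup ↥H) (hA : ∀ a ∈ A, ∀ b ∈ A, a * b = b * a)
    (hcard : (Nat.card A : F) ≠ 0) :
    ∃ (P Q : Matrix (Fin 8) (Fin 8) K) (χ : Fin 8 → ↥A → K), Q * P = 1 ∧ P * Q = 1 ∧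
      ∀ a : ↥A, P * gm ι ((a : ↥H) : ↥(G2 F)) * Q = diagonal (fun i => χ i a) := by
  let e := Subgroup.equivMapOfInjective A H.subtype H.subtype_injective
  obtain ⟨P, Q, χ, h1, h2, h3⟩ := exists_joint_basis ι (A.map H.subtype) (by
    rintro _ ⟨a, ha, rfl⟩ _ ⟨b, hb, rfl⟩
    rw [← map_mul, ← map_mul, hA a ha b hb]) (by rwa [← Nat.card_congr e.toEquiv])
  exact ⟨P, Q, fun i a => χ i (e a), h1, h2, fun a => h3 (e a)⟩

omit [Fintype F] [IsAlgClosed K] in
theorem conj_mat_mul {P Q : Matrix (Fin 8) (Fin 8) K} (hQP : Q * P = 1) (g h : ↥(G2 F)) :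
    P * gm ι (g * h) * Q = (P * gm ι g * Q) * (P * gm ι h * Q) := by
  rw [gm_mul]
  simp only [Matrix.mul_assoc]
  rw [← Matrix.mul_assoc Q P, hQP, Matrix.one_mul]

omit [Fintype F] [IsAlgClosed K] in
theorem conj_mat_injective {P Q : Matrix (Fin 8) (Fin 8) K} (hQP : Q * P = 1) {g h : ↥(G2 F)}
    (e : P * gm ι g * Q = P * gm ι h * Q) : g = h := by
  refine gm_injective ι ?_
  have h1 := congrArg (fun M => Q * M * P) e
  simp only [Matrix.mul_assoc] at h1
  rwa [hQP, Matrix.mul_one, ← Matrix.mul_assoc, hQP, Matrix.one_mul, Matrix.mul_one, ← Matrix.mul_assoc, hQP,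
    Matrix.one_mul] at h1

omit [Fintype F] [IsAlgClosed K] in
theorem exists_row_ne {P Q : Matrix (Fin 8) (Fin 8) K} (hQP : Q * P = 1) (hPQ : P * Q = 1) (g : ↥(G2 F))
    (i : Fin 8) : ∃ j, (P * gm ι g * Q) i j ≠ 0 := by
  by_contra hall
  push Not at hall
  have h1 := congrFun (congrFun (conj_mat_mul ι hQP g g⁻¹) i) i
  rw [mul_inv_cancel, gm_one, Matrix.mul_one, hPQ, Matrix.mul_apply, one_apply_eq] at h1
  simp [hall] at h1

omit [Fintype F] [IsAlgClosed K] in
/-- Some weight is trivial: the identity octonion is fixed. -/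
theorem exists_trivial_weight {P Q : Matrix (Fin 8) (Fin 8) K} {ω : Type*} {A : ω → ↥(G2 F)} {χ : Fin 8 → ω → K}
    (hQP : Q * P = 1) (h : ∀ a, P * gm ι (A a) * Q = diagonal (fun i => χ i a)) : ∃ i, ∀ a, χ i a = 1 := by
  set v := P *ᵥ octOne K with hv
  have hQv : Q *ᵥ v = octOne K := by rw [hv, mulVec_mulVec, hQP, one_mulVec]
  obtain ⟨i, hi⟩ : ∃ i, v i ≠ 0 := by
    by_contra hall
    push Not at hall
    rw [show v = 0 from funext hall, mulVec_zero] at hQv
    exact octOne_ne_zero hQv.symm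
  refine ⟨i, fun a => ?_⟩
  have h1 : (P * gm ι (A a) * Q) *ᵥ v = v := by
    rw [← mulVec_mulVec, hQv, ← mulVec_mulVec, gm_octOne]
  rw [h] at h1
  have h2 := congrFun h1 i
  rw [mulVec_diagonal] at h2
  exact (mul_eq_right₀ hi).1 h2

include ι in
/-- Abelian normal three-subgroups are central. -/
theorem abelian_central (H : Subgroup ↥(G2 F)) [Finite H] (φ : H →* Alt 8) (hφ : Function.Surjective φ)
    (hmin : ∀ M : Subgroup H, M ≠ ⊤ → M.map φ ≠ ⊤) (N : Subgroup H) [hNn : N.Normal]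
    (hab : ∀ x ∈ N, ∀ y ∈ N, x * y = y * x) (hcard : (Nat.card N : F) ≠ 0) : N ≤ Subgroup.center H := by
  classical
  obtain ⟨A, B, χ, hBA, hAB, hχ⟩ := exists_joint_basis_sub ι H N hab hcard
  obtain ⟨i₀, hi₀⟩ := exists_trivial_weight ι hBA hχ
  let S := {ν : ↥N → K // (∃ i, χ i = ν) ∧ ν ≠ 1}
  let cj : H → ↥N → ↥N := fun g a => ⟨g * a * g⁻¹, hNn.conj_mem a a.2 g⟩
  have cj_mul : ∀ g g' a, cj (g * g') a = cj g (cj g' a) := fun g g' a =>
    Subtype.ext (by simp [cj, mul_assoc])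
  have cj_one : ∀ a, cj 1 a = a := fun a => Subtype.ext (by simp [cj])
  have hperm : ∀ (g : H) i, ∃ j, χ i ∘ cj g = χ j := fun g i => by
    obtain ⟨j, hj⟩ := exists_row_ne ι hBA hAB (g : ↥(G2 F)) i
    refine ⟨j, funext fun a => ?_⟩
    have h1 : A * gm ι ((cj g a : H) : ↥(G2 F)) * B * (A * gm ι (g : ↥(G2 F)) * B) =
        A * gm ι (g : ↥(G2 F)) * B * (A * gm ι ((a : H) : ↥(G2 F)) * B) := by
      rw [← conj_mat_mul ι hBA, ← conj_mat_mul ι hBA]
      simp [cj]
    rw [hχ, hχ] at h1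
    have h2 := congrFun (congrFun h1 i) j
    rw [diagonal_mul, mul_diagonal, mul_comm] at h2
    exact mul_left_cancel₀ hj h2
  have hmem : ∀ (g : H) (ν : S), (∃ i, χ i = ν.1 ∘ cj g) ∧ ν.1 ∘ cj g ≠ 1 := fun g ν => by
    obtain ⟨⟨i, hi⟩, hne⟩ := ν.2
    obtain ⟨j, hj⟩ := hperm g i
    refine ⟨⟨j, by rw [← hi, hj]⟩, fun e => hne (funext fun a => ?_)⟩
    have h1 := congrFun e (cj g⁻¹ a)
    rwa [Function.comp, ← cj_mul, mul_inv_cancel, cj_one] at h1
  let act : H →* Equiv.Perm S :=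
    { toFun := fun g =>
        { toFun := fun ν => ⟨_, hmem g⁻¹ ν⟩
          invFun := fun ν => ⟨_, hmem g ν⟩
          left_inv := fun ν => Subtype.ext (funext fun a => by
            simp only [Function.comp]; rw [← cj_mul, inv_mul_cancel, cj_one])
          right_inv := fun ν => Subtype.ext (funext fun a => by
            simp only [Function.comp]; rw [← cj_mul, mul_inv_cancel, cj_one]) }
      map_one' := Equiv.ext fun ν => Subtype.ext (funext fun a => by simp [cj_one])
      map_mul' := fun g g' => Equiv.ext fun ν => Subtype.ext (funext fun a => by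
        simp [Equiv.Perm.mul_apply, cj_mul]) }
  haveI : Finite S := Finite.of_injective (β := Fin 8) (fun ν => ν.2.1.choose) fun ν ν' e => Subtype.ext (by
    simp only at e
    rw [← ν.2.1.choose_spec, e, ν'.2.1.choose_spec])
  have hS : Nat.card S ≤ 7 := by
    have hinj : Function.Injective fun ν : S => (⟨ν.2.1.choose, fun e =>
        ν.2.2 (by rw [← ν.2.1.choose_spec, e]; exact funext hi₀)⟩ : {i : Fin 8 // i ≠ i₀}) := fun ν ν' e =>
      Subtype.ext (by
        have e' := congrArg Subtype.val e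
        simp only at e'
        rw [← ν.2.1.choose_spec, e', ν'.2.1.choose_spec])
    refine (Nat.card_le_card_of_injective _ hinj).trans ?_
    rw [Nat.card_eq_fintype_card, Fintype.card_subtype_compl, Fintype.card_subtype_eq, Fintype.card_fin]
  have htriv := eq_one_of_small hφ hmin (by
    rw [Nat.card_perm]
    exact lt_of_le_of_lt (Nat.factorial_le hS) (by norm_num [Nat.factorial])) act
  refine fun x hx => Subgroup.mem_center_iff.2 fun g => ?_
  have h1 : cj g ⟨x, hx⟩ = ⟨x, hx⟩ := by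
    refine Subtype.ext (Subtype.ext (conj_mat_injective ι hBA ?_))
    rw [hχ, hχ]
    congr 1
    funext i
    by_cases hi : χ i = 1
    · rw [hi]; rfl
    have h2 := congrArg Subtype.val (Equiv.Perm.ext_iff.1 (htriv g⁻¹) ⟨χ i, ⟨i, rfl⟩, hi⟩)
    simp only [act, MonoidHom.coe_mk, OneHom.coe_mk, Equiv.coe_fn_mk, inv_inv, Equiv.Perm.coe_one, id_eq] at h2
    exact congrFun h2 ⟨x, hx⟩
  exact mul_inv_eq_iff_eq_mul.1 (congrArg Subtype.val h1)

set_option maxHeartbeats 1000000 in
/-- A normal subgroup whose commutators act by scalars is small modulo the elements acting centrally. -/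
theorem card_quot_le {H : Type*} [Group H] [Finite H] {K S : Type*} [Field K] [Fintype S] [DecidableEq S]
    (hS : 0 < Fintype.card S) (blk : H → Matrix S S K) (hblk : ∀ g h, blk (g * h) = blk g * blk h)
    (hblk1 : blk 1 = 1) (N ZE : Subgroup H) [ZE.Normal]
    (hZE : ∀ x ∈ N, (∀ y ∈ N, blk x * blk y = blk y * blk x) → x ∈ ZE) (ω : ↥N → ↥N → K)
    (hcom : ∀ x y : ↥N, blk x * blk y = ω x y • (blk y * blk x)) :
    Nat.card ↥(N.map (QuotientGroup.mk' ZE)) ≤ Fintype.card S * Fintype.card S := by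
  classical
  obtain ⟨i₀⟩ := Fintype.card_pos_iff.1 hS
  set q := QuotientGroup.mk' ZE
  have hblkinv : ∀ g, blk g * blk g⁻¹ = 1 ∧ blk g⁻¹ * blk g = 1 := fun g =>
    ⟨by rw [← hblk, mul_inv_cancel, hblk1], by rw [← hblk, inv_mul_cancel, hblk1]⟩
  let L : ↥N → Module.End K (Matrix S S K) := fun y =>
    LinearMap.mulLeft K (blk y) ∘ₗ LinearMap.mulRight K (blk (y : H)⁻¹)
  have hL : ∀ y E, L y E = blk y * E * blk (y : H)⁻¹ := fun y E => (mul_assoc _ _ _).symm
  let ν : ↥N → ↥N → K := fun x y => ω y x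
  have hLw : ∀ x y : ↥N, L y (blk (x : H)) = ν x y • blk (x : H) := fun x y => by
    rw [hL, hcom y x, smul_mul_assoc, mul_assoc, (hblkinv _).1, mul_one]
  have hLc : ∀ y y', Commute (L y) (L y') := fun y y' => LinearMap.ext fun E => by
    show L y (L y' E) = L y' (L y E)
    have e1 := hcom y y'
    have e0 : blk (y' : H)⁻¹ * blk (y : H)⁻¹ * (blk y * blk y') = 1 := by
      rw [mul_assoc, ← mul_assoc (blk (y : H)⁻¹), (hblkinv _).2, one_mul, (hblkinv _).2]
    have e2 : ω y y' • (blk (y' : H)⁻¹ * blk (y : H)⁻¹) = blk (y : H)⁻¹ * blk (y' : H)⁻¹ := by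
      have h1 := congrArg (fun M => M * (blk (y : H)⁻¹ * blk (y' : H)⁻¹)) (congrArg (blk (y' : H)⁻¹ * blk (y : H)⁻¹ * ·) e1)
      simp only [e0, one_mul, mul_smul_comm, smul_mul_assoc] at h1
      rw [h1]
      congr 1
      simp only [mul_assoc]
      rw [← mul_assoc (blk (y : H)) (blk (y : H)⁻¹), (hblkinv _).1, one_mul, (hblkinv _).1, mul_one]
    simp only [hL]
    calc blk y * (blk y' * E * blk (y' : H)⁻¹) * blk (y : H)⁻¹
        = (blk y * blk y') * E * (blk (y' : H)⁻¹ * blk (y : H)⁻¹) := by simp only [mul_assoc]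
      _ = (blk y' * blk y) * E * (blk (y : H)⁻¹ * blk (y' : H)⁻¹) := by
          rw [e1, ← e2]; simp only [smul_mul_assoc, mul_smul_comm]
      _ = blk y' * (blk y * E * blk (y : H)⁻¹) * blk (y' : H)⁻¹ := by simp only [mul_assoc]
  haveI : Finite ↥(N.map q) := Finite.of_surjective (fun x : ↥N => (⟨q x, x, x.2, rfl⟩ : ↥(N.map q)))
    (by rintro ⟨_, x, hx, rfl⟩; exact ⟨⟨x, hx⟩, rfl⟩)
  haveI : Fintype ↥(N.map q) := Fintype.ofFinite _
  choose rep hrepN hrep using fun z : ↥(N.map q) => z.2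
  have hinj : Function.Injective fun z => ν ⟨rep z, hrepN z⟩ := fun z z' e => by
    refine Subtype.ext ?_
    rw [← hrep z, ← hrep z']
    refine (QuotientGroup.eq (s := ZE)).2 (hZE _ (mul_mem (inv_mem (hrepN z)) (hrepN z')) fun y hy => ?_)
    have e1 := hLw ⟨rep z, hrepN z⟩ ⟨y, hy⟩
    have e2 := hLw ⟨rep z', hrepN z'⟩ ⟨y, hy⟩
    have e' : ν ⟨rep z, hrepN z⟩ ⟨y, hy⟩ = ν ⟨rep z', hrepN z'⟩ ⟨y, hy⟩ := congrFun e ⟨y, hy⟩
    rw [← e'] at e2
    rw [hL] at e1 e2
    simp only at e1 e2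
    set t := ν ⟨rep z, hrepN z⟩ ⟨y, hy⟩
    have e3 : blk y * blk (rep z) = t • (blk (rep z) * blk y) := by
      have := congrArg (fun M => M * blk y) e1
      simpa only [mul_assoc, (hblkinv y).2, mul_one, smul_mul_assoc] using this
    have e4 : blk y * blk (rep z') = t • (blk (rep z') * blk y) := by
      have := congrArg (fun M => M * blk y) e2
      simpa only [mul_assoc, (hblkinv y).2, mul_one, smul_mul_assoc] using this
    have ht : t ≠ 0 := fun h0 => by
      rw [h0, zero_smul] at e4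
      have h5 : (1 : Matrix S S K) = 0 := by
        rw [← (hblkinv (y * rep z')).1, hblk, e4, zero_mul]
      have h6 := congrFun (congrFun h5 i₀) i₀
      simp at h6
    have e5 : blk (rep z)⁻¹ * blk y = t • (blk y * blk (rep z)⁻¹) := by
      calc blk (rep z)⁻¹ * blk y = blk (rep z)⁻¹ * (blk y * blk (rep z)) * blk (rep z)⁻¹ := by
            rw [mul_assoc, mul_assoc, (hblkinv _).1, mul_one]
        _ = t • (blk y * blk (rep z)⁻¹) := by
            rw [e3, mul_smul_comm, smul_mul_assoc, ← mul_assoc (blk (rep z)⁻¹), (hblkinv _).2, one_mul]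
    rw [hblk]
    refine smul_right_injective _ ht ?_
    show t • (blk (rep z)⁻¹ * blk (rep z') * blk y) = t • (blk y * (blk (rep z)⁻¹ * blk (rep z')))
    calc t • (blk (rep z)⁻¹ * blk (rep z') * blk y) = blk (rep z)⁻¹ * (t • (blk (rep z') * blk y)) := by
          rw [mul_smul_comm, mul_assoc]
      _ = blk (rep z)⁻¹ * blk y * blk (rep z') := by rw [← e4, mul_assoc]
      _ = t • (blk y * (blk (rep z)⁻¹ * blk (rep z'))) := by rw [e5, smul_mul_assoc, mul_assoc]
  have := card_weights_le L hLc (Finset.univ.image fun z => ν ⟨rep z, hrepN z⟩) (fun f hf => by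
    obtain ⟨z, -, rfl⟩ := Finset.mem_image.1 hf
    refine ⟨blk (rep z), fun h0 => ?_, fun y => hLw ⟨rep z, hrepN z⟩ y⟩
    have h5 := (hblkinv (rep z)).1
    rw [h0, zero_mul] at h5
    have h6 := congrFun (congrFun h5 i₀) i₀
    simp at h6)
  rw [Finset.card_image_of_injective _ hinj, Finset.card_univ, Module.finrank_matrix, Module.finrank_self,
    mul_one] at this
  rw [Nat.card_eq_fintype_card]
  exact this

set_option maxHeartbeats 1000000 in
include ι in
/-- Three-elements of the kernel are central. -/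
theorem three_central (h3 : (3 : F) ≠ 0) (H : Subgroup ↥(G2 F)) (φ : H →* Alt 8) (hφ : Function.Surjective φ)
    (hmin : ∀ M : Subgroup H, M ≠ ⊤ → M.map φ ≠ ⊤) :
    ∀ x : H, φ x = 1 → (∃ k : ℕ, x ^ 3 ^ k = 1) → x ∈ Subgroup.center H := by
  classical
  haveI : Fact (Nat.Prime 3) := ⟨by norm_num⟩
  haveI : Finite ↥(G2 F) := Finite.of_injective _ (gm_injective (RingHom.id F))
  have hperf := perfect_of_min (by norm_num) hφ hmin
  haveI : Group.IsNilpotent (frattini H) := frattini_nilpotent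
  haveI hKnil : Group.IsNilpotent φ.ker :=
    nilpotent_of_mulEquiv (Subgroup.subgroupOfEquivOfLe (map_ne_top_of_min hφ hmin))
  obtain ⟨P⟩ : Nonempty (Sylow 3 φ.ker) := Sylow.nonempty
  haveI hPn : (P : Subgroup φ.ker).Normal := by
    have := (Group.isNilpotent_of_finite_tfae (G := φ.ker)).out 0 3
    exact this.1 hKnil 3 ⟨by norm_num⟩ P
  haveI : (P : Subgroup φ.ker).Characteristic := P.characteristic_of_normal hPn
  set P' := (P : Subgroup φ.ker).map φ.ker.subtype with hP'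
  haveI hP'n : P'.Normal := inferInstance
  have hP'p : IsPGroup 3 P' := P.2.map _
  suffices hle : P' ≤ Subgroup.center H by
    rintro x hx ⟨k, hk⟩
    refine hle ⟨⟨x, hx⟩, ?_, rfl⟩
    haveI := Sylow.unique_of_normal P hPn
    have hz : IsPGroup 3 (Subgroup.zpowers (⟨x, hx⟩ : φ.ker)) := by
      obtain ⟨e, -, he⟩ := (Nat.dvd_prime_pow (show Nat.Prime 3 by norm_num)).1
        (orderOf_dvd_of_pow_eq_one (show (⟨x, hx⟩ : φ.ker) ^ 3 ^ k = 1 from Subtype.ext hk))
      exact IsPGroup.of_card (n := e) (by rw [Nat.card_zpowers, he])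
    obtain ⟨P₂, hP₂⟩ := hz.exists_le_sylow
    rw [Subsingleton.elim P₂ P] at hP₂
    exact hP₂ (Subgroup.mem_zpowers _)
  by_contra hPZ
  obtain ⟨N, ⟨hNn, hNP, hNZ⟩, hNmin⟩ := exists_minimal_of_wellFoundedLT
    (fun N : Subgroup H => N.Normal ∧ N ≤ P' ∧ ¬ N ≤ Subgroup.center H) ⟨P', hP'n, le_rfl, hPZ⟩
  haveI := hNn
  have hNp : IsPGroup 3 N := hP'p.to_le hNP
  have hN3 : ∀ A : Subgroup H, A ≤ N → (Nat.card A : F) ≠ 0 := fun A hA => by
    obtain ⟨k, hk⟩ := IsPGroup.iff_card.1 (hNp.to_le hA)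
    rw [hk, Nat.cast_pow]
    exact pow_ne_zero _ (by exact_mod_cast h3)
  have hNlt : ∀ M : Subgroup H, M.Normal → M ≤ N → M ≠ N → M ≤ Subgroup.center H := fun M hMn hMN hne => by
    by_contra hM
    exact hne (le_antisymm hMN (hNmin ⟨hMn, hMN.trans hNP, hM⟩ hMN))
  have hcomm : ∀ x ∈ N, ∀ y ∈ N, ⁅x, y⁆ ∈ Subgroup.center H := by
    intro x hx y hy
    haveI : Nontrivial N := N.nontrivial_iff_ne_bot.2 fun e => hNZ (e ▸ bot_le)
    refine hNlt ⁅N, N⁆ inferInstance (Subgroup.commutator_le_self N) (fun e => ?_)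
      (Subgroup.commutator_mem_commutator hx hy)
    have hnil : Group.IsNilpotent N := hNp.isNilpotent
    have hlt : commutator N < ⊤ := IsSolvable.commutator_lt_top_of_nontrivial N
    refine hlt.ne (Subgroup.map_injective N.subtype_injective ?_)
    rw [Subgroup.map_subtype_commutator, ← MonoidHom.range_eq_map, N.range_subtype, e]
  by_cases hab : ∀ x ∈ N, ∀ y ∈ N, x * y = y * x
  · exact hNZ (abelian_central ι H φ hφ hmin N hab (hN3 N le_rfl))
  -- non-abelian
  push Not at hab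
  obtain ⟨x₀, hx₀, y₀, hy₀, hne⟩ := hab
  set Z := Subgroup.center H ⊓ N with hZ
  obtain ⟨A, B, χ, hBA, hAB, hχ⟩ := exists_joint_basis_sub ι H Z
    (fun a _ b hb => Subgroup.mem_center_iff.1 hb.1 a) (hN3 Z inf_le_right)
  have hcomZ : ∀ x ∈ N, ∀ y ∈ N, ⁅x, y⁆ ∈ Z := fun x hx y hy =>
    ⟨hcomm x hx y hy, Subgroup.commutator_le_self N (Subgroup.commutator_mem_commutator hx hy)⟩
  set c : ↥Z := ⟨⁅x₀, y₀⁆, hcomZ x₀ hx₀ y₀ hy₀⟩ with hc
  obtain ⟨i₀, hi₀⟩ : ∃ i, χ i c ≠ 1 := by
    by_contra hall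
    push Not at hall
    refine hne (commutatorElement_eq_one_iff_mul_comm.1 (Subtype.ext (conj_mat_injective ι hBA ?_)))
    show A * gm ι ((c : H) : ↥(G2 F)) * B = _
    rw [hχ, show (fun i => χ i c) = fun _ => 1 from funext hall, OneMemClass.coe_one, gm_one, Matrix.mul_one,
      hAB, diagonal_one]
  set μ := χ i₀ with hμ
  let S := {i : Fin 8 // χ i = μ}
  let T : H → Matrix (Fin 8) (Fin 8) K := fun g => A * gm ι (g : ↥(G2 F)) * B
  have hT : ∀ g h, T (g * h) = T g * T h := fun g h => conj_mat_mul ι hBA _ _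
  have hT1 : T 1 = 1 := by simp only [T, OneMemClass.coe_one, gm_one, Matrix.mul_one, hAB]
  have hTz : ∀ z : ↥Z, T z = diagonal (fun i => χ i z) := hχ
  have hzero : ∀ (g : H) i j, χ i ≠ χ j → T g i j = 0 := fun g i j hij => by
    by_contra hne'
    refine hij (funext fun z => ?_)
    have h1 : T g * T z = T z * T g := by rw [← hT, ← hT, Subgroup.mem_center_iff.1 z.2.1 g]
    rw [hTz] at h1
    have h2 := congrFun (congrFun h1 i) j
    rw [mul_diagonal, diagonal_mul, mul_comm] at h2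
    exact (mul_right_cancel₀ hne' h2).symm
  let blk : H → Matrix S S K := fun g => (T g).submatrix Subtype.val Subtype.val
  have hblk : ∀ g h, blk (g * h) = blk g * blk h := fun g h => by
    ext i j
    simp only [blk, Matrix.submatrix_apply, hT, Matrix.mul_apply]
    rw [← Finset.sum_subtype (Finset.univ.filter fun k => χ k = μ) (fun k => by simp)
      (fun k => T g i.1 k * T h k j.1)]
    refine (Finset.sum_subset (Finset.filter_subset _ _) fun k _ hk => ?_).symm
    rw [hzero g i.1 k (fun e => hk (Finset.mem_filter.2 ⟨Finset.mem_univ k, e.symm.trans i.2⟩)), zero_mul]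
  have hblk1 : blk 1 = 1 := by
    ext i j
    simp only [blk, hT1, Matrix.submatrix_apply, Matrix.one_apply]
    exact if_congr Subtype.ext_iff.symm rfl rfl
  have hblkz : ∀ z : ↥Z, blk z = μ z • (1 : Matrix S S K) := fun z => by
    ext i j
    by_cases h : i = j
    · subst h
      simp [blk, hTz, congrFun i.2 z]
    · simp [blk, hTz, Matrix.one_apply_ne h, diagonal_apply_ne _ (Subtype.val_injective.ne h)]
  have hcard : Fintype.card S ≤ 3 := by
    have hcF : ((c : H) : ↥(G2 F)) ^ Nat.card Z = 1 := by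
      rw [← Subgroup.coe_pow, ← Subgroup.coe_pow, pow_card_eq_one']; rfl
    obtain ⟨A', B', a, b, d, hBA', -, -, hD⟩ := exists_torus ι ((c : H) : ↥(G2 F)) (hN3 Z inf_le_right) hcF
    have he := (eig_of_conj ι hBA (hχ c)).symm.trans (eig_of_conj ι hBA' hD)
    have hcount := congrArg (Multiset.count (μ c)) he
    rw [Multiset.count_map, Multiset.count_map] at hcount
    obtain ⟨k, hk⟩ := IsPGroup.iff_card.1 (hNp.to_le (inf_le_right : Z ≤ N))
    have hpow : μ c ^ 3 ^ k = 1 := by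
      have hTp : ∀ n : ℕ, T ((c : H) ^ n) = diagonal (fun i => χ i c ^ n) := fun n => by
        induction n with
        | zero => rw [pow_zero, hT1, ← diagonal_one]; simp
        | succ n ih => rw [pow_succ, hT, ih, hTz, diagonal_mul_diagonal]; simp [pow_succ]
      have h1 := hTp (Nat.card Z)
      rw [← Subgroup.coe_pow, pow_card_eq_one', Subgroup.coe_one, hT1, ← diagonal_one] at h1
      rw [← hk]
      exact (congrFun (diagonal_injective h1) i₀).symm
    have hμ0 : μ c ≠ 0 := fun e => by rw [e, zero_pow (pow_ne_zero _ (by norm_num))] at hpow; exact zero_ne_one hpow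
    have hle := eigen_count_le a b d hi₀ (three_pow_mul_self_ne_one hpow hi₀) hμ0
    refine le_trans ?_ hle
    rw [Fintype.card_subtype]
    refine le_trans (Finset.card_le_card (t := Finset.univ.filter fun i => χ i c = μ c) fun i hi => ?_) (le_of_eq ?_)
    · simp only [Finset.mem_filter, Finset.mem_univ, true_and] at hi ⊢
      rw [hi]
    · simp only [Finset.card_def, Finset.filter_val, eq_comm (b := μ c)]
      exact hcount
  have hblkinv : ∀ g, blk g * blk g⁻¹ = 1 ∧ blk g⁻¹ * blk g = 1 := fun g =>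
    ⟨by rw [← hblk, mul_inv_cancel, hblk1], by rw [← hblk, inv_mul_cancel, hblk1]⟩
  have hcom : ∀ x y, (hx : x ∈ N) → (hy : y ∈ N) →
      blk x * blk y = μ ⟨⁅x, y⁆, hcomZ x hx y hy⟩ • (blk y * blk x) := fun x y hx hy => by
    have hxy : ⁅x, y⁆ * (y * x) = x * y := by simp only [commutatorElement_def]; group
    calc blk x * blk y = blk (x * y) := (hblk x y).symm
      _ = blk ⁅x, y⁆ * (blk y * blk x) := by rw [← hblk, ← hblk, hxy]
      _ = _ := by rw [hblkz ⟨_, hcomZ x hx y hy⟩, smul_mul_assoc, one_mul]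
  let ZE : Subgroup H :=
    { carrier := {x | x ∈ N ∧ ∀ y ∈ N, blk x * blk y = blk y * blk x}
      one_mem' := ⟨one_mem N, fun y _ => by rw [hblk1, one_mul, mul_one]⟩
      mul_mem' := fun {x x'} hx hx' => ⟨mul_mem hx.1 hx'.1, fun y hy => by
        rw [hblk, mul_assoc, hx'.2 y hy, ← mul_assoc, hx.2 y hy, mul_assoc]⟩
      inv_mem' := fun {x} hx => ⟨inv_mem hx.1, fun y hy => by
        calc blk x⁻¹ * blk y = blk x⁻¹ * (blk y * blk x) * blk x⁻¹ := by
              rw [mul_assoc, mul_assoc, (hblkinv x).1, mul_one]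
          _ = blk y * blk x⁻¹ := by
              rw [← hx.2 y hy, ← mul_assoc, (hblkinv x).2, one_mul]⟩ }
  haveI hZEn : ZE.Normal := ⟨fun x hx g => ⟨hNn.conj_mem x hx.1 g, fun y hy => by
    have h1 := hx.2 (g⁻¹ * y * g) (by simpa using hNn.conj_mem y hy g⁻¹)
    rw [← hblk, ← hblk] at h1 ⊢
    calc blk (g * x * g⁻¹ * y) = blk g * blk (x * (g⁻¹ * y * g)) * blk g⁻¹ := by
          rw [← hblk, ← hblk]; congr 1; group
      _ = blk (y * (g * x * g⁻¹)) := by rw [h1, ← hblk, ← hblk]; congr 1; group⟩⟩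
  have hx₀E : x₀ ∉ ZE := fun h => by
    have h1 := h.2 y₀ hy₀
    rw [hcom x₀ y₀ hx₀ hy₀] at h1
    have h2 : μ c • (1 : Matrix S S K) = 1 := by
      have h3 := congrArg (fun M => M * (blk x₀⁻¹ * blk y₀⁻¹)) h1
      have h4 : blk y₀ * blk x₀ * (blk x₀⁻¹ * blk y₀⁻¹) = 1 := by
        rw [mul_assoc, ← mul_assoc (blk x₀), (hblkinv x₀).1, one_mul, (hblkinv y₀).1]
      simpa only [smul_mul_assoc, h4] using h3
    have h3 := congrFun (congrFun h2 ⟨i₀, rfl⟩) ⟨i₀, rfl⟩
    simp only [Matrix.smul_apply, one_apply_eq, smul_eq_mul, mul_one] at h3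
    exact hi₀ h3
  have hZE : ZE ≤ Subgroup.center H := hNlt ZE hZEn (fun x hx => hx.1) fun e => hx₀E (e ▸ hx₀)
  -- the quotient has order at most nine
  let q := QuotientGroup.mk' ZE
  haveI : (N.map q).Normal := hNn.map q (QuotientGroup.mk'_surjective ZE)
  have h9 : Nat.card ↥(N.map q) ≤ 9 :=
    (card_quot_le (Fintype.card_pos_iff.2 ⟨⟨i₀, rfl⟩⟩) blk hblk hblk1 N ZE (fun x hx h => ⟨hx, h⟩)
      (fun x y => μ ⟨⁅(x : H), (y : H)⁆, hcomZ x x.2 y y.2⟩) (fun x y => hcom x y x.2 y.2)).trans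
      (Nat.mul_le_mul hcard hcard)
  obtain ⟨a, b, hab'⟩ := exists_two_generators (hNp.map q) h9
  haveI : Finite (MulAut ↥(N.map q)) := Finite.of_injective (fun f => (⇑f)) DFunLike.coe_injective
  have hsmall : Nat.card (MulAut ↥(N.map q)) < 20160 := by
    have hinj : Function.Injective fun f : MulAut ↥(N.map q) => (f a, f b) := fun f f' e => by
      simp only [Prod.mk.injEq] at e
      have h1 : f.toMonoidHom = f'.toMonoidHom := MonoidHom.eq_of_eqOn_dense hab' (by
        rintro x (rfl | rfl)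
        · exact e.1
        · exact e.2)
      exact MulEquiv.ext fun x => DFunLike.congr_fun h1 x
    have := Nat.card_le_card_of_injective _ hinj
    rw [Nat.card_prod] at this
    have h81 := Nat.mul_le_mul h9 h9
    omega
  have htriv := eq_one_of_small hφ hmin hsmall (MulAut.conjNormal.comp q)
  refine hNZ fun x hx => mem_center_of_commutator_mem hperf fun g => hZE ?_
  have h1 : q g * q x * (q g)⁻¹ = q x := congrArg Subtype.val
    (DFunLike.congr_fun (htriv g) (⟨q x, x, hx, rfl⟩ : ↥(N.map q)))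
  refine (QuotientGroup.eq_one_iff (N := ZE) _).1 ?_
  show q ⁅g, x⁆ = 1
  rw [map_commutatorElement, commutatorElement_def, h1, mul_inv_cancel]

end CfsgLib.AltExc
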