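import Cfsg.Agent.AltLinear.Reduction

/-!
Minimal alternating sections and elements of order five that are conjugate to their squares.
-/

set_option autoImplicit false

namespace CfsgLib.AltExc

open CfsgLib.AltLinear

/-- An alternating section of degree `r` contains alternating sections of smaller degree. -/
theorem exists_smaller {G : Type*} [Group G] {m r : ℕ} (hmr : m ≤ r) (L : Subgroup G) (K : Subgroup L) [K.Normal]
    (h : Nonempty (L ⧸ K ≃* Alt r)) : ∃ (H : Subgroup G) (φ : H →* Alt m), Function.Surjective φ := by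
  obtain ⟨e⟩ := h
  set f : L →* Alt r := e.toMonoidHom.comp (QuotientGroup.mk' K)
  have hf : Function.Surjective f := e.surjective.comp (QuotientGroup.mk'_surjective K)
  set d := em (Fin.castLEEmb hmr)
  let H₀ : Subgroup L := d.range.comap f
  let e₂ : Alt m ≃* d.range := MonoidHom.ofInjective (em_injective _)
  let g : H₀ →* d.range := f.subgroupComap d.range
  have hg : Function.Surjective g := fun y => by
    obtain ⟨x, hx⟩ := hf y.1
    exact ⟨⟨x, show f x ∈ d.range by rw [hx]; exact y.2⟩, Subtype.ext hx⟩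
  let e₁ := Subgroup.equivMapOfInjective H₀ L.subtype L.subtype_injective
  refine ⟨H₀.map L.subtype, (e₂.symm.toMonoidHom.comp g).comp e₁.symm.toMonoidHom, ?_⟩
  exact (e₂.symm.surjective.comp hg).comp e₁.symm.surjective

/-- A subgroup minimal with the given alternating image. -/
theorem exists_min {G : Type*} [Group G] [Finite G] {m : ℕ} (H : Subgroup G) (φ : H →* Alt m)
    (hφ : Function.Surjective φ) : ∃ (H' : Subgroup G) (φ' : H' →* Alt m), Function.Surjective φ' ∧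
      ∀ M : Subgroup H', M ≠ ⊤ → M.map φ' ≠ ⊤ := by
  obtain ⟨H', ⟨φ', hφ'⟩, hmin⟩ := exists_minimal_of_wellFoundedLT
    (fun H' : Subgroup G => ∃ φ' : H' →* Alt m, Function.Surjective φ') ⟨H, φ, hφ⟩
  refine ⟨H', φ', hφ', fun M hM htop => hM ?_⟩
  let e := Subgroup.equivMapOfInjective M H'.subtype H'.subtype_injective
  have hle : M.map H'.subtype ≤ H' := Subgroup.map_subtype_le M
  have hsurj : Function.Surjective ((φ'.comp M.subtype).comp e.symm.toMonoidHom) := by
    refine Function.Surjective.comp (g := φ'.comp M.subtype) (fun x => ?_) e.symm.surjective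
    obtain ⟨y, hy, rfl⟩ := (htop ▸ Subgroup.mem_top x : x ∈ M.map φ')
    exact ⟨⟨y, hy⟩, rfl⟩
  have h1 := hmin ⟨_, hsurj⟩ hle
  exact eq_top_iff.2 fun x _ => (Subgroup.mem_map_iff_mem H'.subtype_injective).1 (h1 x.2)

/-- The image of a Sylow subgroup of a preimage. -/
theorem sylow_map_eq {H A : Type*} [Group H] [Finite H] [Group A] {p : ℕ} [Fact p.Prime] (φ : H →* A)
    (hφ : Function.Surjective φ) (E : Subgroup A) (hE : IsPGroup p E) (P : Sylow p ↥(E.comap φ)) :
    ((P : Subgroup ↥(E.comap φ)).map (E.comap φ).subtype).map φ = E := by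
  haveI : Finite A := Finite.of_surjective φ hφ
  let g : ↥(E.comap φ) →* E := φ.subgroupComap E
  have hg : Function.Surjective g := fun y => by
    obtain ⟨x, hx⟩ := hφ y.1
    exact ⟨⟨x, show φ x ∈ E by rw [hx]; exact y.2⟩, Subtype.ext hx⟩
  have h1 : (P : Subgroup ↥(E.comap φ)).map g = ⊤ := by
    let PE := P.mapSurjective hg
    obtain ⟨k, hk⟩ := IsPGroup.iff_card.1 hE
    refine Subgroup.eq_top_of_card_eq _ ?_
    have h2 := PE.card_eq_multiplicity
    rw [hk, (Fact.out : p.Prime).factorization_pow, Finsupp.single_eq_same] at h2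
    rw [hk]
    exact h2
  refine le_antisymm ?_ fun y hy => ?_
  · rintro _ ⟨_, ⟨x, -, rfl⟩, rfl⟩
    exact x.2
  · obtain ⟨x, hx, hxy⟩ := (h1.symm ▸ Subgroup.mem_top (⟨y, hy⟩ : E) : (⟨y, hy⟩ : E) ∈ (P : Subgroup _).map g)
    exact ⟨x.1, ⟨x, hx, rfl⟩, congrArg Subtype.val hxy⟩

/-- Frattini: an element normalizing `E` lifts to the normalizer of a Sylow subgroup of the preimage of `E`. -/
theorem exists_lift_normalizer {H A : Type*} [Group H] [Finite H] [Group A] {p : ℕ} [Fact p.Prime] (φ : H →* A)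
    (hφ : Function.Surjective φ) (E : Subgroup A) (hE : IsPGroup p E) (P : Sylow p ↥(E.comap φ)) {β : A}
    (hβ : β ∈ Subgroup.normalizer (E : Set A)) :
    ∃ y ∈ Subgroup.normalizer (((P : Subgroup ↥(E.comap φ)).map (E.comap φ).subtype : Subgroup H) : Set H),
      φ y = β := by
  let L := E.comap φ
  let P' := (P : Subgroup ↥L).map L.subtype
  let N₀ := (Subgroup.normalizer (E : Set A)).comap φ
  have hLN : L ≤ N₀ := Subgroup.comap_mono Subgroup.le_normalizer
  have hN : N₀ ≤ Subgroup.normalizer (L : Set H) := by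
    intro x hx
    rw [Subgroup.mem_normalizer_iff]
    intro h
    have := Subgroup.mem_normalizer_iff.1 (show φ x ∈ Subgroup.normalizer (E : Set A) from hx) (φ h)
    simpa [L, Subgroup.mem_comap] using this
  obtain ⟨x, hx⟩ := hφ β
  have hxN : x ∈ Subgroup.normalizer (L : Set H) := hN (show φ x ∈ _ by rw [hx]; exact hβ)
  haveI : (L.subgroupOf (Subgroup.normalizer (L : Set H))).Normal := Subgroup.normal_in_normalizer
  -- the conjugate Sylow subgroup
  have hmem : ∀ z ∈ L, x * z * x⁻¹ ∈ L := fun z hz => (Subgroup.mem_normalizer_iff.1 hxN z).1 hz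
  have hmem' : ∀ z ∈ L, x⁻¹ * z * x ∈ L := fun z hz => by
    simpa using (Subgroup.mem_normalizer_iff.1 (inv_mem hxN) z).1 hz
  let c : ↥L ≃* ↥L :=
    { toFun := fun z => ⟨x * z * x⁻¹, hmem z z.2⟩
      invFun := fun z => ⟨x⁻¹ * z * x, hmem' z z.2⟩
      left_inv := fun z => Subtype.ext (by simp [mul_assoc])
      right_inv := fun z => Subtype.ext (by simp [mul_assoc])
      map_mul' := fun z w => Subtype.ext (by simp [mul_assoc]) }
  obtain ⟨l, hl⟩ := MulAction.exists_smul_eq ↥L (P.mapSurjective (f := c.toMonoidHom) c.surjective) P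
  have hconj : P'.map (MulAut.conj ((l : H) * x)).toMonoidHom = P' := by
    have h1 : ((l • P.mapSurjective (f := c.toMonoidHom) c.surjective : Sylow p ↥L) : Subgroup ↥L) = (P : Subgroup ↥L) := by
      rw [hl]
    have h2 := congrArg (Subgroup.map L.subtype) h1
    have h3 : ((l • P.mapSurjective (f := c.toMonoidHom) c.surjective : Sylow p ↥L) : Subgroup ↥L) =
        ((P : Subgroup ↥L).map c.toMonoidHom).map (MulAut.conj l).toMonoidHom := rfl
    rw [h3, Subgroup.map_map, Subgroup.map_map] at h2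
    refine Eq.trans ?_ h2
    show ((P : Subgroup ↥L).map L.subtype).map _ = _
    rw [Subgroup.map_map]
    congr 1
    ext z
    simp [c, mul_assoc]
  have hnorm : (l : H) * x ∈ Subgroup.normalizer (P' : Set H) :=
    Subgroup.mem_normalizer_iff_map_conj_eq.2 hconj
  have hlE : φ (l : H) ∈ E := l.2
  have h9 : φ (l : H) ∈ P'.map φ := (sylow_map_eq φ hφ E hE P).symm ▸ hlE
  obtain ⟨q, hq, hql⟩ := h9
  refine ⟨q⁻¹ * ((l : H) * x), mul_mem (inv_mem (Subgroup.le_normalizer (H := P') hq)) hnorm, ?_⟩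
  rw [map_mul, map_mul, map_inv, hql, hx, inv_mul_cancel_left]

/-- The five-cycle. -/
def c7 : Alt 7 := ⟨Equiv.swap 0 1 * Equiv.swap 1 2 * Equiv.swap 2 3 * Equiv.swap 3 4,
  Equiv.Perm.mem_alternatingGroup.2 (by decide)⟩

/-- An element conjugating the five-cycle to its square. -/
def y7 : Alt 7 := ⟨Equiv.swap 1 2 * Equiv.swap 2 4 * Equiv.swap 4 3 * Equiv.swap 5 6,
  Equiv.Perm.mem_alternatingGroup.2 (by decide)⟩

theorem c7_rel : y7 * c7 * y7⁻¹ = c7 ^ 2 ∧ c7 ^ 5 = 1 ∧ c7 ≠ 1 := by decide +kernel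

theorem orderOf_c7 : orderOf c7 = 5 := by
  haveI := Fact.mk (show Nat.Prime 5 by norm_num)
  exact orderOf_eq_prime c7_rel.2.1 c7_rel.2.2

/-- An alternating image of degree seven yields an element of order five conjugate to its square,
as soon as five-subgroups are abelian. -/
theorem exists_conj_sq {H : Type*} [Group H] [Finite H] (φ : H →* Alt 7) (hφ : Function.Surjective φ)
    (hab : ∀ P : Subgroup H, IsPGroup 5 P → ∀ a ∈ P, ∀ b ∈ P, a * b = b * a) :
    ∃ z y : H, orderOf z = 5 ∧ y * z * y⁻¹ = z ^ 2 := by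
  haveI : Fact (Nat.Prime 5) := ⟨by norm_num⟩
  set E := Subgroup.zpowers c7 with hEdef
  have hE : IsPGroup 5 E := IsPGroup.of_card (n := 1) (by rw [Nat.card_zpowers, orderOf_c7, pow_one])
  obtain ⟨P₀⟩ : Nonempty (Sylow 5 ↥(E.comap φ)) := Sylow.nonempty
  set P := (P₀ : Subgroup ↥(E.comap φ)).map (E.comap φ).subtype with hP
  have hPp : IsPGroup 5 P := P₀.2.map _
  have hy7 : y7 ∈ Subgroup.normalizer (E : Set (Alt 7)) := by
    rw [Subgroup.mem_normalizer_iff_map_conj_eq, hEdef, MonoidHom.map_zpowers]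
    show Subgroup.zpowers (y7 * c7 * y7⁻¹) = _
    rw [c7_rel.1]
    refine le_antisymm (Subgroup.zpowers_le.2 (Subgroup.pow_mem _ (Subgroup.mem_zpowers _) 2)) (Subgroup.zpowers_le.2 ?_)
    have h3 : (c7 ^ 2) ^ 3 = c7 := by rw [← pow_mul, show 2 * 3 = 5 + 1 from rfl, pow_succ, c7_rel.2.1, one_mul]
    have h4 := Subgroup.pow_mem _ (Subgroup.mem_zpowers (c7 ^ 2)) 3
    rw [h3] at h4
    exact h4
  obtain ⟨y₀, hy₀, hy₀φ⟩ := exists_lift_normalizer φ hφ E hE P₀ hy7
  -- kill the five-part of the lift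
  obtain ⟨j, n, hn5, hord⟩ := Nat.exists_eq_pow_mul_and_not_dvd (orderOf_pos y₀).ne' 5 (by norm_num)
  set y := y₀ ^ 5 ^ j with hy
  have hyn : y ^ n = 1 := by rw [hy, ← pow_mul, ← hord, pow_orderOf_eq_one]
  have hyN : y ∈ Subgroup.normalizer (P : Set H) := Subgroup.pow_mem _ hy₀ _
  have hpow2 : ∀ i : ℕ, y7 ^ i * c7 * (y7 ^ i)⁻¹ = c7 ^ 2 ^ i := fun i => by
    induction i with
    | zero => simp
    | succ i ih =>
      have h1 : y7 ^ (i + 1) * c7 * (y7 ^ (i + 1))⁻¹ = y7 ^ i * (y7 * c7 * y7⁻¹) * (y7 ^ i)⁻¹ := by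
        rw [pow_succ]; group
      rw [h1, c7_rel.1, ← conj_pow, ih, ← pow_mul, pow_succ]
  have hyφ : φ y * c7 * (φ y)⁻¹ = c7 ^ 2 := by
    rw [hy, map_pow, hy₀φ, hpow2]
    apply pow_eq_pow_iff_modEq.2
    rw [orderOf_c7]
    show 2 ^ 5 ^ j % 5 = 2 % 5
    have h1 : 5 ^ j % 4 = 1 := by rw [Nat.pow_mod]; simp
    conv_lhs => rw [← Nat.div_add_mod (5 ^ j) 4, h1, pow_succ, pow_mul, Nat.mul_mod, Nat.pow_mod]
    simp
  have hφyi : ∀ i : ℕ, φ y ^ i * c7 * (φ y ^ i)⁻¹ = c7 ^ 2 ^ i := fun i => by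
    induction i with
    | zero => simp
    | succ i ih =>
      have h1 : φ y ^ (i + 1) * c7 * (φ y ^ (i + 1))⁻¹ = φ y ^ i * (φ y * c7 * (φ y)⁻¹) * (φ y ^ i)⁻¹ := by
        rw [pow_succ]; group
      rw [h1, hyφ, ← conj_pow, ih, ← pow_mul, pow_succ]
  obtain ⟨x, hxP, hxc⟩ : ∃ x ∈ P, φ x = c7 := by
    have := sylow_map_eq φ hφ E hE P₀
    have hc : c7 ∈ P.map φ := by rw [hP, this]; exact Subgroup.mem_zpowers c7
    exact hc
  obtain ⟨e, he⟩ : ∃ e, ∀ w ∈ P, w ^ 5 ^ e = 1 := by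
    obtain ⟨e, he⟩ := IsPGroup.iff_card.1 hPp
    exact ⟨e, fun w hw => by
      have h1 : (⟨w, hw⟩ : P) ^ 5 ^ e = 1 := by rw [← he]; exact pow_card_eq_one'
      simpa using congrArg Subtype.val h1⟩
  -- an exponent of order four
  set t := 2 ^ 5 ^ e with ht
  set u := t ^ 3 with hu
  have hdvd : ∀ w ∈ P, t ^ 4 ≡ 1 [MOD orderOf w] := fun w hw => by
    have h0 := Nat.ModEq.pow_totient (show Nat.Coprime 2 (5 ^ (e + 1)) from Nat.Coprime.pow_right _ (by norm_num))
    rw [Nat.totient_prime_pow_succ (show Nat.Prime 5 by norm_num), pow_mul] at h0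
    exact (Nat.ModEq.of_dvd (pow_dvd_pow 5 (Nat.le_succ e)) h0).of_dvd (orderOf_dvd_of_pow_eq_one (he w hw))
  have htu : ∀ w ∈ P, w ^ (u * t) = w := fun w hw => by
    have h1 : u * t ≡ 1 [MOD orderOf w] := by
      rw [show u * t = t ^ 4 by rw [hu]; ring]
      exact hdvd w hw
    conv_rhs => rw [← pow_one w]
    exact pow_eq_pow_iff_modEq.2 h1
  have ht5 : t % 5 = 2 := by
    have h1 : 5 ^ e % 4 = 1 := by rw [Nat.pow_mod]; simp
    rw [ht, ← Nat.div_add_mod (5 ^ e) 4, h1, pow_succ, pow_mul, Nat.mul_mod, Nat.pow_mod]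
    simp
  have hu5 : u % 5 = 3 := by rw [hu, Nat.pow_mod, ht5]
  let cj : ↥P →* ↥P :=
    { toFun := fun w => ⟨y * w * y⁻¹, (Subgroup.mem_normalizer_iff.1 hyN _).1 w.2⟩
      map_one' := Subtype.ext (by simp)
      map_mul' := fun a b => Subtype.ext (by simp [mul_assoc]) }
  letI : CommGroup ↥P :=
    { (inferInstance : Group ↥P) with mul_comm := fun a b => Subtype.ext (hab P hPp a a.2 b b.2) }
  let f : ℕ → ↥P := fun i => ⟨(y ^ i * x * (y ^ i)⁻¹) ^ u ^ i, Subgroup.pow_mem _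
    ((Subgroup.mem_normalizer_iff.1 (Subgroup.pow_mem _ hyN i) _).1 hxP) _⟩
  set W : ↥P := ∏ i ∈ Finset.range n, f i with hW
  have hstep : ∀ i, cj (f i) ^ u = f (i + 1) := fun i => Subtype.ext (by
    show (y * (y ^ i * x * (y ^ i)⁻¹) ^ u ^ i * y⁻¹) ^ u = (y ^ (i + 1) * x * (y ^ (i + 1))⁻¹) ^ u ^ (i + 1)
    rw [← conj_pow, ← pow_mul, ← pow_succ]
    congr 1
    rw [pow_succ']; group)
  have hn0 : n ≠ 0 := fun h => hn5 (by rw [h]; exact dvd_zero 5)
  have hn4 : c7 ^ 2 ^ n = c7 := by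
    have := hφyi n
    rw [← map_pow, hyn, map_one, one_mul, inv_one, mul_one] at this
    exact this.symm
  have hn4' : 4 ∣ n := by
    have h1 : 2 ^ n % 5 = 1 := by
      have h0 : c7 ^ 2 ^ n = c7 ^ 1 := by rw [hn4, pow_one]
      have := pow_eq_pow_iff_modEq.1 h0
      rwa [orderOf_c7] at this
    rw [← Nat.div_add_mod n 4, pow_add, pow_mul, Nat.mul_mod, Nat.pow_mod] at h1
    rw [Nat.dvd_iff_mod_eq_zero]
    have h2 : n % 4 < 4 := Nat.mod_lt _ (by norm_num)
    interval_cases hh : n % 4 <;> simp at h1 ⊢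
  have hcycle : f n = f 0 := by
    refine Subtype.ext ?_
    show (y ^ n * x * (y ^ n)⁻¹) ^ u ^ n = (y ^ 0 * x * (y ^ 0)⁻¹) ^ u ^ 0
    rw [hyn]
    simp only [pow_zero, one_mul, inv_one, mul_one, pow_one]
    obtain ⟨k, hk⟩ := hn4'
    have h1 : u ^ n ≡ 1 [MOD orderOf x] := by
      rw [hk, pow_mul, show u ^ 4 = (t ^ 4) ^ 3 by rw [hu]; ring, ← pow_mul]
      simpa using (hdvd x hxP).pow (3 * k)
    conv_rhs => rw [← pow_one x]
    exact pow_eq_pow_iff_modEq.2 h1
  have hcjW : cj W ^ u = W := by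
    rw [hW, map_prod, ← Finset.prod_pow, Finset.prod_congr rfl (fun i _ => hstep i)]
    have h1 := Finset.prod_range_succ' f n
    rw [Finset.prod_range_succ f n, hcycle] at h1
    exact (mul_right_cancel h1).symm
  have hWt : cj W = W ^ t := by
    conv_rhs => rw [← hcjW, ← pow_mul]
    exact Subtype.ext (htu (cj W : H) (cj W).2).symm
  have hfi : ∀ i, φ (f i : H) = c7 ^ ((2 ^ i) * u ^ i) := fun i => by
    show φ ((y ^ i * x * (y ^ i)⁻¹) ^ u ^ i) = _
    rw [map_pow, map_mul, map_mul, map_inv, map_pow, hxc, hφyi, ← pow_mul]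
  have hWφ : φ (W : H) = c7 ^ n := by
    have hgen : ∀ m, φ ((∏ i ∈ Finset.range m, f i : ↥P) : H) = c7 ^ m := fun m => by
      induction m with
      | zero => simp
      | succ m ih =>
        rw [Finset.prod_range_succ, Subgroup.coe_mul, map_mul, ih, hfi, pow_succ]
        congr 1
        conv_rhs => rw [← pow_one c7]
        apply pow_eq_pow_iff_modEq.2
        rw [orderOf_c7]
        show (2 ^ m * u ^ m) % 5 = 1 % 5
        rw [← mul_pow, Nat.pow_mod, Nat.mul_mod, hu5]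
        simp
    exact hgen n
  have hW1 : (W : H) ≠ 1 := fun h => by
    rw [h, map_one] at hWφ
    have h2 := orderOf_dvd_of_pow_eq_one hWφ.symm
    rw [orderOf_c7] at h2
    exact hn5 h2
  obtain ⟨k, -, hk⟩ := (Nat.dvd_prime_pow (show Nat.Prime 5 by norm_num)).1
    (orderOf_dvd_of_pow_eq_one (he W W.2))
  obtain ⟨k', rfl⟩ : ∃ k', k = k' + 1 := ⟨k - 1, by
    rcases k with - | k
    · exact absurd (orderOf_eq_one_iff.1 (by simpa using hk)) hW1
    · rfl⟩
  refine ⟨(W : H) ^ 5 ^ k', y, ?_, ?_⟩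
  · rw [orderOf_pow_of_dvd (by positivity) (by rw [hk, pow_succ]; exact dvd_mul_right _ _), hk, pow_succ,
      Nat.mul_div_cancel_left _ (by positivity)]
  · have h1 : y * (W : H) * y⁻¹ = (W : H) ^ t := congrArg Subtype.val hWt
    rw [← conj_pow, h1, ← pow_mul, ← pow_mul, pow_eq_pow_iff_modEq, hk, pow_succ, mul_comm t]
    exact Nat.ModEq.mul_left' _ (show t % 5 = 2 % 5 by rw [ht5])

end CfsgLib.AltExc
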