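import Cfsg.Agent.AltExc.G2Small

/-!
An elementary abelian group of order nine in `G₂` is not normalized as in the alternating group of degree eight.
-/

set_option autoImplicit false

namespace CfsgLib.AltExc

open Matrix Cfsg.Lie CfsgLib.G2Oct

/-- The weights of a torus element of order three, additively. -/
def w3 (i j : ZMod 3) : Fin 8 → ZMod 3 := ![0, i, j, -i - j, -i, -j, i + j, 0]

theorem w3_count : ∀ i j : ZMod 3, ¬ (i = 0 ∧ j = 0) →
    (Finset.univ.filter fun k => w3 i j k = 0).card = 2 ∨ (Finset.univ.filter fun k => w3 i j k = 0).card = 4 := by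
  decide +kernel

theorem line_count : ∀ x y : ZMod 3, (if x = 0 then 1 else 0) + (if y = 0 then 1 else 0) +
    (if x + y = 0 then 1 else 0) + (if x + 2 * y = 0 then (1 : ℕ) else 0) =
      1 + 3 * (if x = 0 ∧ y = 0 then 1 else 0) := by decide +kernel

variable {F : Type*} [Field F] [Fintype F] {K : Type*} [Field K] [IsAlgClosed K] (ι : F →+* K)

include ι in
/-- An element of order three fixes a space of dimension two or four. -/
theorem count_one_of_three [DecidableEq K] (h3 : (3 : F) ≠ 0) (g : ↥(G2 F)) (hg3 : g ^ 3 = 1) (hg : g ≠ 1) :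
    (eig ι g).count 1 = 2 ∨ (eig ι g).count 1 = 4 := by
  obtain ⟨P, Q, a, b, c, hQP, hPQ, habc, hD⟩ := exists_torus ι g (m := 3) (by exact_mod_cast h3) hg3
  have h3K : ((3 : ℕ) : K) ≠ 0 := by
    rw [← map_natCast ι]
    intro e
    have := ι.injective (e.trans (map_zero ι).symm)
    exact h3 (by exact_mod_cast this)
  have hroot : ∀ k, wOct a b c k ^ 3 = 1 := fun k => by
    have h1 : P * gm ι (g * g * g) * Q = diagonal (wOct a b c) * diagonal (wOct a b c) * diagonal (wOct a b c) := by
      rw [← hD, ← conj_mat_mul ι hQP, ← conj_mat_mul ι hQP]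
    rw [show g * g * g = 1 by rw [← hg3, pow_three, mul_assoc], gm_one, Matrix.mul_one, hPQ, ← diagonal_one,
      diagonal_mul_diagonal, diagonal_mul_diagonal] at h1
    rw [pow_three, ← mul_assoc]
    exact (congrFun (diagonal_injective h1) k).symm
  haveI : NeZero ((3 : ℕ) : K) := ⟨h3K⟩
  obtain ⟨ζ, hζ⟩ := HasEnoughRootsOfUnity.exists_primitiveRoot K 3
  obtain ⟨i, hi⟩ := exists_pow_zmod hζ (x := a) (by simpa [wOct] using hroot 1)
  obtain ⟨j, hj⟩ := exists_pow_zmod hζ (x := b) (by simpa [wOct] using hroot 2)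
  let e : ZMod 3 → K := fun l => ζ ^ l.val
  have he : ∀ l l', e (l + l') = e l * e l' := fun l l' => by
    show ζ ^ (l + l').val = ζ ^ l.val * ζ ^ l'.val
    rw [← pow_add, ZMod.val_add, ← pow_eq_pow_mod _ hζ.pow_eq_one]
  have he0 : e 0 = 1 := by simp [e]
  have heneg : ∀ l, e (-l) = (e l)⁻¹ := fun l =>
    eq_inv_of_mul_eq_one_left (by rw [← he, neg_add_cancel, he0])
  have heinj : Function.Injective e := fun l l' hl =>
    ZMod.val_injective 3 (hζ.pow_inj (ZMod.val_lt l) (ZMod.val_lt l') hl)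
  have hc : c = e (-i - j) := by
    rw [sub_eq_add_neg, he, heneg, heneg, show e i = a from hi.symm, show e j = b from hj.symm]
    have ha := left_ne_zero_of_mul (left_ne_zero_of_mul (habc ▸ one_ne_zero : a * b * c ≠ 0))
    have hb := right_ne_zero_of_mul (left_ne_zero_of_mul (habc ▸ one_ne_zero : a * b * c ≠ 0))
    field_simp
    linear_combination habc
  have hw : wOct a b c = e ∘ w3 i j := by
    funext k
    fin_cases k <;> simp [wOct, w3, Function.comp, he0, hc, heneg, hi, hj, e] <;>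
      first
        | rfl
        | (show _ = e (i + j); rw [show i + j = -(-i - j) by ring, heneg])
  have hij : ¬ (i = 0 ∧ j = 0) := fun ⟨hi0, hj0⟩ => hg (conj_mat_injective ι hQP (by
    rw [hD, hw, gm_one, Matrix.mul_one, hPQ, ← diagonal_one]
    congr 1
    funext k
    fin_cases k <;> simp [w3, hi0, hj0, he0]))
  have hcount : (eig ι g).count 1 = (Finset.univ.filter fun k => w3 i j k = 0).card := by
    rw [eig_of_conj ι hQP hD, Multiset.count_map, hw, Finset.card_def, Finset.filter_val]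
    congr 1
    refine Multiset.filter_congr fun k _ => ?_
    rw [Function.comp, ← he0]
    exact ⟨fun h => heinj h.symm, fun h => (congrArg e h).symm⟩
  rw [hcount]
  exact w3_count i j hij

include ι in
/-- There is no elementary abelian configuration of order nine. -/
theorem no_three_config (h3 : (3 : F) ≠ 0) (a b s v : ↥(G2 F)) (ha : a ^ 3 = 1) (hb : b ^ 3 = 1)
    (hab : a * b = b * a) (ha1 : a ≠ 1) (hb1 : b ≠ 1) (hab1 : a * b ≠ 1)
    (hsa : s * a * s⁻¹ = b) (hva : v * a * v⁻¹ = a) (hvb : v * b * v⁻¹ = b⁻¹) : False := by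
  classical
  haveI : Fact (Nat.Prime 3) := ⟨by norm_num⟩
  haveI : Finite ↥(G2 F) := Finite.of_injective _ (gm_injective (RingHom.id F))
  set A := Subgroup.closure ({a, b} : Set ↥(G2 F)) with hA
  have hcomm : ∀ x ∈ A, ∀ y ∈ A, x * y = y * x := by
    have h1 : A ≤ Subgroup.centralizer ({a, b} : Set ↥(G2 F)) := (Subgroup.closure_le _).2 (by
      rintro x (rfl | rfl) y (rfl | rfl)
      exacts [rfl, hab.symm, hab, rfl])
    have h2 : A ≤ Subgroup.centralizer (A : Set ↥(G2 F)) := (Subgroup.closure_le _).2 fun x hx y hy =>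
      (h1 hy x hx).symm
    exact fun x hx y hy => h2 hy x hx
  have hexp : ∀ x ∈ A, x ^ 3 = 1 := fun x hx => by
    induction hx using Subgroup.closure_induction with
    | mem x hx => rcases hx with rfl | rfl <;> assumption
    | one => exact one_pow 3
    | mul x y hx hy ihx ihy => rw [(show Commute x y from hcomm x hx y hy).mul_pow, ihx, ihy, one_mul]
    | inv x _ ih => rw [inv_pow, ih, inv_one]
  obtain ⟨k, hk⟩ := IsPGroup.iff_card.1 (show IsPGroup 3 A from fun x => ⟨1, Subtype.ext (by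
    rw [pow_one, Subgroup.coe_pow, hexp x x.2]; rfl)⟩)
  obtain ⟨P, Q, χ, hQP, hPQ, hχ⟩ := exists_joint_basis ι A hcomm (by
    rw [hk, Nat.cast_pow]; exact pow_ne_zero _ (by exact_mod_cast h3))
  obtain ⟨i₀, hi₀⟩ := exists_trivial_weight ι hQP hχ
  set a' : ↥A := ⟨a, Subgroup.subset_closure (by simp)⟩
  set b' : ↥A := ⟨b, Subgroup.subset_closure (by simp)⟩
  have hmul : ∀ i (x y : ↥A), χ i (x * y) = χ i x * χ i y := fun i x y => by
    have h1 := hχ (x * y)
    rw [Subgroup.coe_mul, conj_mat_mul ι hQP, hχ, hχ, diagonal_mul_diagonal] at h1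
    exact (congrFun (diagonal_injective h1) i).symm
  have hone : ∀ i, χ i 1 = 1 := fun i => by
    have h1 := hχ 1
    rw [Subgroup.coe_one, gm_one, Matrix.mul_one, hPQ, ← diagonal_one] at h1
    exact (congrFun (diagonal_injective h1) i).symm
  have hroot : ∀ i (x : ↥A), χ i x ^ 3 = 1 := fun i x => by
    rw [pow_three, ← hmul, ← hmul, show x * (x * x) = 1 from Subtype.ext (by
      rw [Subgroup.coe_mul, Subgroup.coe_mul, Subgroup.coe_one, ← pow_three, hexp x x.2]), hone]
  have h3K : ((3 : ℕ) : K) ≠ 0 := by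
    rw [← map_natCast ι]
    intro e
    have := ι.injective (e.trans (map_zero ι).symm)
    exact h3 (by exact_mod_cast this)
  haveI : NeZero ((3 : ℕ) : K) := ⟨h3K⟩
  obtain ⟨ζ, hζ⟩ := HasEnoughRootsOfUnity.exists_primitiveRoot K 3
  choose ex hex using fun i x => exists_pow_zmod hζ (hroot i x)
  have hexzero : ∀ i x, χ i x = 1 ↔ ex i x = 0 := fun i x => by
    rw [hex i x]
    refine ⟨fun h => ?_, fun h => by rw [h]; simp⟩
    exact (ZMod.val_eq_zero _).1 (hζ.pow_inj (ZMod.val_lt _) (by norm_num) (by rw [h, pow_zero]))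
  have hexadd : ∀ i x y, ex i (x * y) = ex i x + ex i y := fun i x y => by
    refine ZMod.val_injective 3 (hζ.pow_inj (ZMod.val_lt _) (ZMod.val_lt _) ?_)
    rw [← hex, hmul, hex i x, hex i y, ← pow_add, ZMod.val_add, ← pow_eq_pow_mod _ hζ.pow_eq_one]
  let n : ↥A → ℕ := fun x => ∑ i : Fin 8, if ex i x = 0 then 1 else 0
  have hn : ∀ x : ↥A, (eig ι (x : ↥(G2 F))).count 1 = n x := fun x => by
    rw [eig_of_conj ι hQP (hχ x), Multiset.count_map]
    show _ = ∑ i : Fin 8, if ex i x = 0 then 1 else 0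
    rw [Finset.sum_boole, Finset.card_def, Finset.filter_val]
    simp only [Nat.cast_id]
    congr 1
    exact Multiset.filter_congr fun i _ => by rw [eq_comm, hexzero]
  have hsum : n a' + n b' + n (a' * b') + n (a' * (b' * b')) =
      (∑ _i : Fin 8, 1) + 3 * ∑ i : Fin 8, (if ex i a' = 0 ∧ ex i b' = 0 then 1 else 0) := by
    simp only [n, ← Finset.sum_add_distrib, Finset.mul_sum]
    refine Finset.sum_congr rfl fun i _ => ?_
    rw [hexadd, hexadd, hexadd, ← two_mul]
    exact line_count _ _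
  have hd : 1 ≤ ∑ i : Fin 8, (if ex i a' = 0 ∧ ex i b' = 0 then 1 else 0) := by
    refine le_of_eq_of_le ?_ (Finset.single_le_sum (fun i _ => Nat.zero_le _) (Finset.mem_univ i₀))
    rw [if_pos ⟨(hexzero _ _).1 (hi₀ _), (hexzero _ _).1 (hi₀ _)⟩]
  have e1 : n a' = n b' := by rw [← hn, ← hn, show (b' : ↥(G2 F)) = s * a * s⁻¹ from hsa.symm, eig_conj]
  have e2 : n (a' * b') = n (a' * (b' * b')) := by
    rw [← hn, ← hn, show ((a' * (b' * b') : ↥A) : ↥(G2 F)) = v * (a * b) * v⁻¹ by
      rw [show v * (a * b) * v⁻¹ = (v * a * v⁻¹) * (v * b * v⁻¹) by group, hva, hvb,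
        show b⁻¹ = b * b from inv_eq_of_mul_eq_one_left (by rw [← hb, pow_three, mul_assoc])]
      rfl, eig_conj]
    rfl
  have c1 := count_one_of_three ι h3 a ha ha1
  have c3 := count_one_of_three ι h3 (a * b) (hexp _ (mul_mem a'.2 b'.2)) hab1
  rw [show a = (a' : ↥(G2 F)) from rfl, hn] at c1
  rw [show a * b = ((a' * b' : ↥A) : ↥(G2 F)) from rfl, hn] at c3
  have h8 : (∑ _i : Fin 8, 1) = 8 := by simp
  omega

end CfsgLib.AltExc
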